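import Cfsg.Agent.FTC.Trans
import Cfsg.Agent.S0227
import Cfsg.Agent.Solv.BurnsideBasis
import Cfsg.Prelude.Def_KGroupFacts

/-!
Consequences of the odd order theorem (helper14), part 3: Glauberman's criteria for the solvability of
`Out G`, `G` simple. `autN V` (automorphisms normalizing `V`), `resN V`, `imA V T` (automorphisms of `V` induced
by `N_T(V)`), `out_solvable_of_perfect`, fusion of the elements of a weakly closed elementary abelian subgroup.
-/

set_option autoImplicit false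

namespace Cfsg.Agent.FTC

open Subgroup
open scoped Pointwise

variable {G : Type*} [Group G]

/-- The automorphisms of `G` leaving `V` invariant. -/
def autN (V : Subgroup G) : Subgroup (MulAut G) where
  carrier := {φ | ∀ x, φ x ∈ V ↔ x ∈ V}
  mul_mem' := fun {a b} ha hb x => by rw [MulAut.mul_apply, ha, hb]
  one_mem' := fun x => Iff.rfl
  inv_mem' := fun {a} ha x => by rw [← ha]; simp

theorem mem_autN {V : Subgroup G} {φ : MulAut G} : φ ∈ autN V ↔ ∀ x, φ x ∈ V ↔ x ∈ V := Iff.rfl

theorem mem_autN_of_le [Finite G] {V : Subgroup G} {φ : MulAut G} (h : ∀ x ∈ V, φ x ∈ V) : φ ∈ autN V := by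
  have h1 : V.map φ.toMonoidHom = V := eq_of_le_of_card_ge (by rintro _ ⟨x, hx, rfl⟩; exact h x hx)
    (card_map_of_injective φ.injective).ge
  refine fun x => ⟨fun hx => ?_, h x⟩
  rw [← h1] at hx
  obtain ⟨y, hy, e⟩ := hx
  rwa [← φ.injective e]

/-- Restriction of automorphisms to an invariant subgroup. -/
def resN (V : Subgroup G) : autN V →* MulAut V :=
  resAut (autN V).subtype V fun φ x hx => (φ.2 x).2 hx

theorem resN_apply (V : Subgroup G) (φ : autN V) (x : V) : (resN V φ x : G) = (φ : MulAut G) x := rfl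

/-- The automorphisms of `V` induced by `N_T(V)`. -/
def imA (V T : Subgroup G) : Subgroup (MulAut V) :=
  (T.subgroupOf (normalizer (V : Set G))).map V.normalizerMonoidHom

theorem mem_imA {V T : Subgroup G} {a : MulAut V} :
    a ∈ imA V T ↔ ∃ g ∈ T, g ∈ normalizer (V : Set G) ∧ ∀ x : V, (a x : G) = g * x * g⁻¹ := by
  constructor
  · rintro ⟨g, hg, rfl⟩
    exact ⟨g, hg, g.2, fun x => rfl⟩
  · rintro ⟨g, hg, hg', h⟩
    exact ⟨⟨g, hg'⟩, hg, MulEquiv.ext fun x => Subtype.ext (h x).symm⟩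

theorem imA_top (V : Subgroup G) : imA V ⊤ = V.normalizerMonoidHom.range := by
  rw [imA, top_subgroupOf, MonoidHom.range_eq_map]

theorem apply_mem_normalizer {V : Subgroup G} {φ : MulAut G} (h : φ ∈ autN V) {g : G}
    (hg : g ∈ normalizer (V : Set G)) : φ g ∈ normalizer (V : Set G) := by
  rw [mem_normalizer_iff] at hg ⊢
  intro x
  obtain ⟨y, rfl⟩ := φ.surjective x
  rw [← map_inv, ← map_mul, ← map_mul, h, h, hg]

theorem resN_mem_normalizer {V T : Subgroup G} (φ : autN V) (h : (φ : MulAut G) ∈ autN T) :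
    resN V φ ∈ normalizer (imA V T : Set (MulAut V)) := by
  have key : ∀ φ : autN V, (φ : MulAut G) ∈ autN T → ∀ a ∈ imA V T, resN V φ * a * (resN V φ)⁻¹ ∈ imA V T := by
    intro φ h a ha
    obtain ⟨g, hg, hg', e⟩ := mem_imA.1 ha
    refine mem_imA.2 ⟨(φ : MulAut G) g, (h g).2 hg, apply_mem_normalizer φ.2 hg', fun x => ?_⟩
    rw [← map_inv, MulAut.mul_apply, MulAut.mul_apply, resN_apply, e, resN_apply]
    simp
  rw [mem_normalizer_iff]
  refine fun a => ⟨key φ h a, fun ha => ?_⟩
  have := key φ⁻¹ ((autN T).inv_mem h) _ ha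
  simpa [mul_assoc] using this

theorem isSylowIn_imA [Finite G] {p : ℕ} [Fact p.Prime] {V : Subgroup G} (S : Sylow p G)
    (h : (S : Subgroup G) ≤ normalizer (V : Set G)) : Transfer.IsSylowIn p (imA V S) (imA V ⊤) := by
  refine ⟨map_mono fun x _ => mem_top _, (S.isPGroup'.comap_subtype).map _, ?_⟩
  rw [imA_top, ← index_comap]
  exact fun h2 => (Transfer.isSylowIn_of_sylow_le S h).not_dvd (h2.trans (index_dvd_of_le (le_comap_map _ _)))

theorem solvable_inf_normalizer [Finite G] {T H : Subgroup G} (h : Transfer.IsSylowIn 2 T H) :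
    Group.IsSolvable (H ⊓ normalizer (T : Set G) : Subgroup G) := by
  haveI : Fact (Nat.Prime 2) := ⟨Nat.prime_two⟩
  have h1 := h.of_le (le_inf h.le le_normalizer) inf_le_left
  haveI : (T.subgroupOf (H ⊓ normalizer (T : Set G))).Normal :=
    (normal_subgroupOf_iff_le_normalizer h1.le).2 inf_le_right
  exact solvable_of_normal_two (T.subgroupOf _) h1.isPGroup.comap_subtype h1.not_dvd

theorem out_solvable_of_autN [Finite G] {p : ℕ} [Fact p.Prime] (S : Sylow p G)
    (h : Group.IsSolvable (autN (S : Subgroup G))) : Group.IsSolvable (Out G) := by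
  refine Group.isSolvable_of_surjective (f := (QuotientGroup.mk' (Inn G)).comp (autN (S : Subgroup G)).subtype)
    fun u => ?_
  induction u using QuotientGroup.induction_on with
  | H φ =>
  obtain ⟨x, hx⟩ := Transfer.exists_conj_le_sylow S (S.isPGroup'.map φ.toMonoidHom)
  rw [Transfer.conj_smul_le_iff] at hx
  refine ⟨⟨MulAut.conj x * φ, mem_autN_of_le fun y hy => hx _ ⟨y, hy, rfl⟩⟩, ?_⟩
  change ((MulAut.conj x * φ : MulAut G) : Out G) = φ
  rw [QuotientGroup.eq_iff_div_mem, mul_div_cancel_right]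
  exact ⟨x, rfl⟩

theorem out_solvable_of_perfect [Finite G] [IsSimpleGroup G] (S : Sylow 2 G) (hS1 : (S : Subgroup G) ≠ ⊥)
    (h : ∀ B : Subgroup (autN (S : Subgroup G)), ⁅B, B⁆ = B → B.map (resN (S : Subgroup G)) = ⊥) :
    Group.IsSolvable (Out G) := by
  haveI : Fact (Nat.Prime 2) := ⟨Nat.prime_two⟩
  refine out_solvable_of_autN S (solvable_of_perfect fun B hB => ?_)
  let C : Subgroup (MulAut G) :=
    { carrier := {φ | ∀ s : G, s ∈ S → φ s = s}
      mul_mem' := fun {a b} ha hb s hs => by rw [MulAut.mul_apply, hb s hs, ha s hs]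
      one_mem' := fun s _ => rfl
      inv_mem' := fun {a} ha s hs => by
        conv_lhs => rw [← ha s hs]
        simp }
  have hC := (Cfsg.Agent.S0227.result (fun N hN ho => hN.eq_bot_or_eq_top.resolve_right fun e => by
    subst e
    rw [card_top] at ho
    obtain ⟨k, hk⟩ := IsPGroup.iff_card.1 S.isPGroup'
    rcases k with _ | k
    · exact hS1 (card_eq_one.1 hk)
    · exact (Nat.not_even_iff_odd.2 ho) (even_iff_two_dvd.2
        ((dvd_pow_self 2 k.succ_ne_zero).trans (hk ▸ (S : Subgroup G).card_subgroup_dvd_card)))) S C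
    fun _ => Iff.rfl).2
  have h1 : B.map (autN (S : Subgroup G)).subtype ≤ C := by
    rintro _ ⟨b, hb, rfl⟩ s hs
    have h2 : resN (S : Subgroup G) b = 1 := mem_bot.1 (h B hB ▸ mem_map_of_mem _ hb)
    exact congrArg (fun a : MulAut (S : Subgroup G) => (a ⟨s, hs⟩ : G)) h2
  exact (map_eq_bot_iff_of_injective _ (subtype_injective _)).1
    (eq_bot_of_perfect_of_le h1 hC (perfect_map _ hB))

theorem card_mulAut_dvd [Finite G] (hG : IsPGroup 2 G) {T : Finset G} (hT : closure (T : Set G) = ⊤) :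
    (T.card ≤ 2 → ∃ k, Nat.card (MulAut G) ∣ 2 ^ k * 3) ∧ (T.card ≤ 3 → ∃ k, Nat.card (MulAut G) ∣ 2 ^ k * 21) := by
  haveI : Fact (Nat.Prime 2) := ⟨Nat.prime_two⟩
  obtain ⟨n, hn⟩ := IsPGroup.iff_card.1 hG
  obtain ⟨r, -, hr⟩ := (Nat.dvd_prime_pow Nat.prime_two).1 (hn ▸ (frattini G).index_dvd_card)
  have h1 := Solv.le_card_of_closure_eq_top hG hr hT
  have h2 := Cfsg.Agent.S4208.result hn hr
  constructor
  · intro h3
    refine ⟨r * (n - r) + 1, h2.trans ?_⟩
    rw [pow_succ, mul_assoc]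
    apply Nat.mul_dvd_mul_left
    have : r ≤ 2 := h1.trans h3
    interval_cases r <;> simp [Finset.prod_range_succ]
  · intro h3
    refine ⟨r * (n - r) + 3, h2.trans ?_⟩
    rw [pow_add, mul_assoc]
    apply Nat.mul_dvd_mul_left
    have : r ≤ 3 := h1.trans h3
    interval_cases r <;> simp [Finset.prod_range_succ]

theorem solvable_of_dvd_two_mul {X : Type*} [Group X] [Finite X] {k q : ℕ} (hq : q.Prime)
    (h : Nat.card X ∣ 2 ^ k * q) : Group.IsSolvable X :=
  Char.isSolvable_of_two_primes (p := 2) (q := q) fun p hp hd => by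
    rcases (Nat.Prime.dvd_mul hp).1 (hd.trans h) with h | h
    · exact Or.inl ((Nat.prime_dvd_prime_iff_eq hp Nat.prime_two).1 (hp.dvd_of_dvd_pow h))
    · exact Or.inr ((Nat.prime_dvd_prime_iff_eq hp hq).1 h)

theorem le_of_perfect_of_three_gen {X : Type*} [Group X] [Finite X] {k : ℕ} (hX : Nat.card X ∣ 2 ^ k * 21)
    {Y B : Subgroup X} {y : X} (hy : y ∈ Y) (hy1 : y ≠ 1) (hodd : Odd (orderOf y)) (hB : ⁅B, B⁆ = B)
    (hBY : B ≤ normalizer (Y : Set X)) : B ≤ Y := by
  let N := normalizer (Y : Set X)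
  obtain ⟨l, hl, hly⟩ := Nat.exists_prime_and_dvd (fun e => hy1 (orderOf_eq_one_iff.1 e))
  have hlY : l ∣ Nat.card (Y.subgroupOf N) := by
    rw [Nat.card_congr (subgroupOfEquivOfLe le_normalizer).toEquiv]
    exact hly.trans (orderOf_dvd_natCard _ hy)
  have h1 : Nat.card (N ⧸ Y.subgroupOf N) * l ∣ 2 ^ k * 21 :=
    ((Nat.mul_dvd_mul_left _ hlY).trans (by rw [← card_eq_card_quotient_mul_card_subgroup])).trans
      (N.card_subgroup_dvd_card.trans hX)
  have hl2 : l ∣ 21 := by
    refine ((Nat.Prime.dvd_mul hl).1 ((Dvd.intro_left _ rfl).trans h1)).resolve_left fun h => ?_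
    have := (Nat.prime_dvd_prime_iff_eq hl Nat.prime_two).1 (hl.dvd_of_dvd_pow h)
    subst this
    exact (Nat.not_even_iff_odd.2 hodd) (even_iff_two_dvd.2 hly)
  have hq : Group.IsSolvable (N ⧸ Y.subgroupOf N) := by
    rcases (Nat.Prime.dvd_mul hl).1 (show l ∣ 3 * 7 from hl2) with h | h
    · have := (Nat.prime_dvd_prime_iff_eq hl Nat.prime_three).1 h
      subst this
      exact solvable_of_dvd_two_mul (k := k) (q := 7) (by norm_num)
        (Nat.dvd_of_mul_dvd_mul_right (show 0 < 3 by norm_num) (by rw [mul_assoc]; exact h1))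
    · have := (Nat.prime_dvd_prime_iff_eq hl (show Nat.Prime 7 by norm_num)).1 h
      subst this
      exact solvable_of_dvd_two_mul (k := k) (q := 3) (by norm_num)
        (Nat.dvd_of_mul_dvd_mul_right (show 0 < 7 by norm_num) (by rw [mul_assoc]; exact h1))
  have := le_of_perfect_of_quotient _ hq (perfect_subgroupOf hBY hB)
  intro b hb
  exact this (show (⟨b, hBY hb⟩ : N) ∈ B.subgroupOf N from hb)

/-- The normalizer of a weakly closed subgroup `V` controls fusion of elements centralizing `V`. -/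
theorem exists_normalizer_conj [Finite G] {p : ℕ} [Fact p.Prime] (S : Sylow p G) {V : Subgroup G}
    (hV : IsPGroup p V) (hwc : ∀ g : G, MulAut.conj g • V ≤ S → g ∈ normalizer (V : Set G))
    {s t g : G} (hs : V ≤ centralizer {s}) (ht : V ≤ centralizer {t}) (hg : g * s * g⁻¹ = t) :
    ∃ n ∈ normalizer (V : Set G), n * s * n⁻¹ = t := by
  obtain ⟨T, hT, hVT⟩ := Transfer.exists_isSylowIn_ge hV ht
  have h1 : MulAut.conj g • V ≤ centralizer {t} := by
    rw [Transfer.conj_smul_le_iff]
    intro x hx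
    have := mem_centralizer_singleton_iff.1 (hs hx)
    rw [mem_centralizer_singleton_iff, ← hg]
    calc g * x * g⁻¹ * (g * s * g⁻¹) = g * (x * s) * g⁻¹ := by group
      _ = _ := by rw [this]; group
  obtain ⟨c, hc, hcT⟩ := hT.exists_conj_le (Transfer.isPGroup_conj_smul hV g) h1
  obtain ⟨h, hh⟩ := Transfer.exists_conj_le_sylow S hT.isPGroup
  have h2 := hwc h ((Transfer.conj_smul_mono h hVT).trans hh)
  have h3 := (Transfer.conj_smul_mono h hcT).trans hh
  rw [Transfer.conj_smul_conj_smul, Transfer.conj_smul_conj_smul] at h3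
  refine ⟨c * g, by simpa [mul_assoc] using mul_mem (inv_mem h2) (hwc _ h3), ?_⟩
  have := mem_centralizer_singleton_iff.1 hc
  calc c * g * s * (c * g)⁻¹ = c * (g * s * g⁻¹) * c⁻¹ := by group
    _ = t := by rw [hg, this]; group

end Cfsg.Agent.FTC
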