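import Cfsg.Agent.FTC.Aniso
import Cfsg.Agent.Num.Zsigmondy
import Cfsg.Agent.Transfer.SylowIn
import Cfsg.Agent.Char.Burnside
import Cfsg.Agent.S4208

/-!
Consequences of the odd order theorem (helper14), part 2: groups of automorphisms of an elementary abelian
`2`-group `V`. `IrrOn R` (no proper invariant subgroup), an abelian irreducible group is cyclic, centralizers of
irreducible groups have odd order; if `H` is transitive on `V#` then `N(H)/H` is solvable
(`le_of_perfect_of_transitive`).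
-/

set_option autoImplicit false

namespace Cfsg.Agent.FTC

open Subgroup

variable {V : Type*} [Group V]

/-- `R` leaves no proper nontrivial subgroup of `V` invariant. -/
def IrrOn (R : Subgroup (MulAut V)) : Prop :=
  ∀ U : Subgroup V, (∀ r ∈ R, ∀ x ∈ U, r x ∈ U) → U = ⊥ ∨ U = ⊤

theorem IrrOn.mono {R R' : Subgroup (MulAut V)} (h : IrrOn R) (hle : R ≤ R') : IrrOn R' :=
  fun U hU => h U fun r hr => hU r (hle hr)

/-- The fixed points of an automorphism. -/
def fixOf (c : MulAut V) : Subgroup V := MonoidHom.eqLocus c.toMonoidHom (MonoidHom.id V)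

theorem mem_fixOf {c : MulAut V} {x : V} : x ∈ fixOf c ↔ c x = x := Iff.rfl

theorem IrrOn.fixOf_eq_bot {R : Subgroup (MulAut V)} (h : IrrOn R) {c : MulAut V}
    (hc : c ∈ centralizer (R : Set (MulAut V))) (h1 : c ≠ 1) : fixOf c = ⊥ := by
  refine (h (fixOf c) fun r hr x hx => ?_).resolve_right fun ht => h1 ?_
  · rw [mem_fixOf] at hx ⊢
    rw [← MulAut.mul_apply, ← mem_centralizer_iff.1 hc r hr, MulAut.mul_apply, hx]
  · ext x
    exact (ht ▸ mem_top x : x ∈ fixOf c)

theorem comm_of_sq (hV : ∀ x : V, x * x = 1) (x y : V) : x * y = y * x := by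
  calc x * y = x * (x * y * (x * y)) * y := by rw [hV (x * y), mul_one]
    _ = (x * x) * y * x * (y * y) := by group
    _ = y * x := by rw [hV, hV]; group

theorem IrrOn.odd_centralizer [Finite V] (hV : ∀ x : V, x * x = 1) {R : Subgroup (MulAut V)} (h : IrrOn R) :
    Odd (Nat.card (centralizer (R : Set (MulAut V)))) := by
  haveI : Fact (Nat.Prime 2) := ⟨Nat.prime_two⟩
  rw [← Nat.not_even_iff_odd, even_iff_two_dvd]
  intro h2
  obtain ⟨c, hc⟩ := exists_prime_orderOf_dvd_card' 2 h2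
  have hc1 : (c : MulAut V) ≠ 1 := fun e => by
    rw [show c = 1 from Subtype.ext e] at hc; simp at hc
  have hcc : (c : MulAut V) * c = 1 := by
    have := pow_orderOf_eq_one c
    rw [hc, sq] at this
    exact congrArg Subtype.val this
  have h3 := h.fixOf_eq_bot c.2 hc1
  apply hc1
  ext x
  have h4 : x * (c : MulAut V) x ∈ fixOf (c : MulAut V) := by
    rw [mem_fixOf, map_mul, ← MulAut.mul_apply, hcc, MulAut.one_apply, comm_of_sq hV]
  rw [h3, mem_bot, ← hV x] at h4
  exact mul_left_cancel h4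

theorem IrrOn.isCyclic [Finite V] (hV : ∀ x y : V, x * y = y * x) {A : Subgroup (MulAut V)} (h : IrrOn A)
    (hc : ∀ a ∈ A, ∀ b ∈ A, a * b = b * a) : IsCyclic A := by
  letI : CommGroup V := { (inferInstance : Group V) with mul_comm := hV }
  rcases subsingleton_or_nontrivial V with _ | _
  · have : Subsingleton A := ⟨fun a b => Subtype.ext (MulEquiv.ext fun x => Subsingleton.elim _ _)⟩
    infer_instance
  let ρ : A →* AddMonoid.End (Additive V) :=
    { toFun := fun a => MonoidHom.toAdditive (a : MulAut V).toMonoidHom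
      map_one' := rfl
      map_mul' := fun a b => rfl }
  let R := Subring.center (Subring.centralizer (Set.range ρ))
  have hmem : ∀ g, ρ g ∈ Subring.centralizer (Set.range ρ) := by
    rintro g _ ⟨h, rfl⟩
    rw [← map_mul, ← map_mul, show h * g = g * h from Subtype.ext (hc _ h.2 _ g.2)]
  let f : A →* R :=
    { toFun := fun g => ⟨⟨ρ g, hmem g⟩, Subring.mem_center_iff.2 fun z => Subtype.ext (z.2 _ ⟨g, rfl⟩).symm⟩
      map_one' := Subtype.ext (Subtype.ext (map_one ρ))
      map_mul' := fun a b => Subtype.ext (Subtype.ext (map_mul ρ a b)) }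
  have : NoZeroDivisors R := ⟨fun {a b} hab => by
    rcases h (AddSubgroup.toSubgroup' (AddMonoidHom.ker (a.1.1 : Additive V →+ Additive V))) (fun g hg v hv => by
      have h1 : a.1.1 (Additive.ofMul v) = 0 := hv
      have h2 := congrArg (fun z : AddMonoid.End (Additive V) => z (Additive.ofMul v)) (a.1.2 _ ⟨⟨g, hg⟩, rfl⟩)
      change a.1.1 (ρ ⟨g, hg⟩ (Additive.ofMul v)) = 0
      change ρ ⟨g, hg⟩ (a.1.1 (Additive.ofMul v)) = a.1.1 (ρ ⟨g, hg⟩ (Additive.ofMul v)) at h2
      rw [← h2, h1, map_zero]) with h | h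
    · refine Or.inr (Subtype.ext (Subtype.ext (AddMonoidHom.ext fun v => ?_)))
      have h1 : a.1.1 (b.1.1 v) = 0 := congrArg (fun z : R => z.1.1 v) hab
      have h2 : (b.1.1 v).toMul ∈ (⊥ : Subgroup V) := h ▸ h1
      exact (Subgroup.mem_bot (G := V)).1 h2
    · refine Or.inl (Subtype.ext (Subtype.ext (AddMonoidHom.ext fun v => ?_)))
      have h2 : v.toMul ∈ (⊤ : Subgroup V) := mem_top _
      rw [← h] at h2
      exact h2⟩
  haveI : Nontrivial (AddMonoid.End (Additive V)) := ⟨⟨1, 0, fun e => by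
    obtain ⟨v, hv⟩ := exists_ne (1 : V)
    exact hv (congrArg (fun z : AddMonoid.End (Additive V) => (z (Additive.ofMul v)).toMul) e)⟩⟩
  have : IsDomain R := NoZeroDivisors.to_isDomain R
  exact isCyclic_of_injective_ringHom f fun a b h => Subtype.ext (MulEquiv.ext fun x =>
    congrArg (fun z : R => (z.1.1 (Additive.ofMul x)).toMul) h)

theorem solvable_normalizer_of {G : Type*} [Group G] {A : Subgroup G}
    (h1 : Group.IsSolvable (centralizer (A : Set G))) (h2 : Group.IsSolvable A.normalizerMonoidHom.range) :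
    Group.IsSolvable (normalizer (A : Set G)) := by
  refine solvable_of_ker_of_range A.normalizerMonoidHom ?_ h2
  rw [normalizerMonoidHom_ker]
  exact Group.isSolvable_of_isSolvable_injective (f := (subgroupOfEquivOfLe (centralizer_le_normalizer _)).toMonoidHom)
    (MulEquiv.injective _)

theorem solvable_mulAut_of_isCyclic {G : Type*} [Group G] [Finite G] (h : IsCyclic G) :
    Group.IsSolvable (MulAut G) :=
  Group.isSolvable_of_isSolvable_injective (f := (h.mulAutMulEquiv G).toMonoidHom) (MulEquiv.injective _)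

theorem IrrOn.solvable_normalizer_of_comm [Finite V] (hV : ∀ x : V, x * x = 1) {A : Subgroup (MulAut V)}
    (h : IrrOn A) (hc : ∀ a ∈ A, ∀ b ∈ A, a * b = b * a) :
    Group.IsSolvable (normalizer (A : Set (MulAut V))) :=
  haveI := solvable_mulAut_of_isCyclic (h.isCyclic (comm_of_sq hV) hc)
  solvable_normalizer_of (solvable_of_odd (h.odd_centralizer hV)) inferInstance

theorem relIndex_stabilizer (R : Subgroup (MulAut V)) (v : V) :
    (MulAction.stabilizer (MulAut V) v).relIndex R = (MulAction.orbit R v).ncard := by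
  rw [← MulAction.index_stabilizer]; rfl

theorem dvd_card_sub_one [Finite V] {R : Subgroup (MulAut V)} {m : ℕ}
    (h : ∀ v : V, v ≠ 1 → m ∣ (MulAction.stabilizer (MulAut V) v).relIndex R) {U : Subgroup V}
    (hU : ∀ r ∈ R, ∀ x ∈ U, r x ∈ U) : m ∣ Nat.card U - 1 := by
  classical
  haveI := Fintype.ofFinite V
  let T : Finset V := Finset.univ.filter fun x => x ∈ U ∧ x ≠ 1
  have hT : T.card = Nat.card U - 1 := by
    have h1 : T = (Finset.univ.filter fun x => x ∈ U).erase 1 := by
      ext x; simp [T, and_comm]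
    rw [h1, Finset.card_erase_of_mem (by simp), Nat.card_eq_fintype_card, Fintype.card_subtype]
  rw [← hT, Finset.card_eq_sum_card_image (Quotient.mk (MulAction.orbitRel R V)) T]
  refine Finset.dvd_sum fun ω hω => ?_
  obtain ⟨v, hv, rfl⟩ := Finset.mem_image.1 hω
  simp only [T, Finset.mem_filter, Finset.mem_univ, true_and] at hv
  refine (h v hv.2).trans (dvd_of_eq ?_)
  rw [relIndex_stabilizer, ← Set.ncard_coe_finset]
  symm
  congr 1
  ext x
  simp only [T, Finset.coe_filter, Finset.mem_filter, Finset.mem_univ, true_and, Set.mem_ofPred_eq,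
    Quotient.eq, MulAction.orbitRel_apply]
  refine ⟨fun h => h.2, fun h => ⟨?_, h⟩⟩
  obtain ⟨r, rfl⟩ := h
  exact ⟨hU r r.2 v hv.1, fun e => hv.2 ((r : MulAut V).map_eq_one_iff.1 e)⟩

theorem irrOn_of_dvd [Finite V] {n m : ℕ} (hn : Nat.card V = 2 ^ n)
    (hm : ∀ d, 0 < d → d < n → ¬ m ∣ 2 ^ d - 1) {R : Subgroup (MulAut V)}
    (h : ∀ v : V, v ≠ 1 → m ∣ (MulAction.stabilizer (MulAut V) v).relIndex R) : IrrOn R := by
  intro U hU
  have h1 := dvd_card_sub_one h hU
  obtain ⟨d, hd, hUd⟩ := (Nat.dvd_prime_pow Nat.prime_two).1 (hn ▸ U.card_subgroup_dvd_card)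
  rcases Nat.eq_zero_or_pos d with rfl | hd0
  · exact Or.inl (card_eq_one.1 hUd)
  · rcases hd.lt_or_eq with hd | rfl
    · exact absurd (hUd ▸ h1) (hm d hd0 hd)
    · exact Or.inr (U.eq_top_of_card_eq (hUd.trans hn.symm))

theorem relIndex_of_transitive [Finite V] {H : Subgroup (MulAut V)}
    (hH : ∀ v ≠ 1, ∀ w ≠ 1, ∃ g ∈ H, g v = w) {v : V} (hv : v ≠ 1) :
    (MulAction.stabilizer (MulAut V) v).relIndex H = Nat.card V - 1 := by
  rw [relIndex_stabilizer, ← Set.ncard_univ, ← Set.ncard_sdiff_singleton_of_mem (Set.mem_univ (1 : V))]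
  congr 1
  ext w
  simp only [Set.mem_sdiff, Set.mem_univ, Set.mem_singleton_iff, true_and]
  constructor
  · rintro ⟨r, rfl⟩ e
    exact hv ((r : MulAut V).map_eq_one_iff.1 e)
  · intro hw
    obtain ⟨g, hg, e⟩ := hH v hv w hw
    exact ⟨⟨g, hg⟩, e⟩

theorem pow_dvd_relIndex_of_sylow {G : Type*} [Group G] {s a : ℕ} (hs : s.Prime) {R H K : Subgroup G}
    (hR : Transfer.IsSylowIn s R H) (h : s ^ a ∣ K.relIndex H) : s ^ a ∣ K.relIndex R := by
  have h1 := relIndex_mul_relIndex (K ⊓ R) R H inf_le_right hR.le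
  rw [inf_relIndex_right] at h1
  have h2 : s ^ a ∣ K.relIndex R * R.relIndex H := h1 ▸ h.trans (relIndex_dvd_of_le_left H inf_le_left)
  exact (Nat.Coprime.pow_left a ((Nat.Prime.coprime_iff_not_dvd hs).2 hR.not_dvd)).dvd_of_dvd_mul_right h2

theorem exists_sylow_solvable_normalizer [Finite V] (hV : ∀ x : V, x * x = 1) {H : Subgroup (MulAut V)}
    (hH : ∀ v ≠ 1, ∀ w ≠ 1, ∃ g ∈ H, g v = w) :
    ∃ s : ℕ, s.Prime ∧ ∃ R, Transfer.IsSylowIn s R H ∧ Group.IsSolvable (normalizer (R : Set (MulAut V))) := by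
  haveI : Fact (Nat.Prime 2) := ⟨Nat.prime_two⟩
  have hV2 : IsPGroup 2 V := fun x => ⟨1, by simpa [sq] using hV x⟩
  obtain ⟨n, hn⟩ := IsPGroup.iff_card.1 hV2
  have hfr : (frattini V).index = 2 ^ n := by
    rw [(Solv.frattini_eq_bot_iff hV2).2 ⟨⟨⟨comm_of_sq hV⟩⟩, fun x => by simpa [sq] using hV x⟩, index_bot, hn]
  have hAut := Cfsg.Agent.S4208.result hn hfr
  by_cases h1 : n ≤ 1
  · obtain ⟨R, hR⟩ := Transfer.exists_isSylowIn (p := 2) H
    refine ⟨2, Nat.prime_two, R, hR, ?_⟩
    have : Nat.card (MulAut V) = 1 := by interval_cases n <;> simpa using hAut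
    haveI := (Nat.card_eq_one_iff_unique.1 this).1
    infer_instance
  have hnt : Nontrivial V := by
    rw [← Finite.one_lt_card_iff_nontrivial, hn]
    exact Nat.one_lt_two_pow (by omega)
  by_cases h6 : n = 6
  · subst h6
    haveI : Fact (Nat.Prime 3) := ⟨Nat.prime_three⟩
    obtain ⟨R, hR⟩ := Transfer.exists_isSylowIn (p := 3) H
    refine ⟨3, Nat.prime_three, R, hR, ?_⟩
    have hirr : IrrOn R := irrOn_of_dvd (m := 3 ^ 2) hn (fun d h0 hd => by interval_cases d <;> norm_num)
      fun v hv => pow_dvd_relIndex_of_sylow Nat.prime_three hR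
        (by rw [relIndex_of_transitive hH hv, hn]; norm_num)
    by_cases hc : ∀ a ∈ R, ∀ b ∈ R, a * b = b * a
    · exact hirr.solvable_normalizer_of_comm hV hc
    refine solvable_normalizer_of (solvable_of_odd (hirr.odd_centralizer hV)) ?_
    obtain ⟨k, hk⟩ := IsPGroup.iff_card.1 hR.isPGroup
    obtain ⟨r, hrk, hr⟩ := (Nat.dvd_prime_pow Nat.prime_three).1 (hk ▸ (frattini R).index_dvd_card)
    have hAut' : Nat.card (MulAut V) ∣ 2 ^ 15 * 3 ^ 4 * 5 * 7 ^ 2 * 31 := by
      simpa [Finset.prod_range_succ] using hAut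
    have hk4 : k ≤ 4 := by
      by_contra h5
      have : 3 ^ 5 ∣ 2 ^ 15 * 3 ^ 4 * 5 * 7 ^ 2 * 31 :=
        (pow_dvd_pow 3 (by omega)).trans ((hk ▸ R.card_subgroup_dvd_card).trans hAut')
      norm_num at this
    have hr3 : r ≤ 3 := by
      by_contra h5
      have hr4 : r = k := by omega
      have h7 : frattini R = ⊥ := by
        have := (frattini R).card_mul_index
        rw [hr, hk, hr4] at this
        exact card_eq_one.1 ((Nat.mul_eq_right (by positivity)).1 this)
      have := ((Solv.frattini_eq_bot_iff hR.isPGroup).1 h7).1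
      exact hc fun a ha b hb => congrArg Subtype.val (this.is_comm.comm (⟨a, ha⟩ : R) ⟨b, hb⟩)
    have hAR := Cfsg.Agent.S4208.result hk hr
    refine Char.isSolvable_of_two_primes (p := 2) (q := 3) fun p hp hpd => ?_
    have h7 : p ∣ 2 ^ 15 * 3 ^ 4 * 5 * 7 ^ 2 * 31 :=
      (hpd.trans (card_range_dvd _)).trans ((card_subgroup_dvd_card _).trans hAut')
    have h8 := (hpd.trans (card_subgroup_dvd_card _)).trans hAR
    have h9 : p ∣ 2 ^ 5 * 3 ^ 3 * 13 := by
      rcases (Nat.Prime.dvd_mul hp).1 h8 with h | h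
      · exact (hp.dvd_of_dvd_pow h).trans (by norm_num)
      · refine h.trans ?_
        interval_cases r <;> simp [Finset.prod_range_succ]
    have h10 : p ∣ 2 ^ 5 * 3 ^ 3 := (Nat.dvd_gcd h7 h9).trans (by norm_num)
    rcases (Nat.Prime.dvd_mul hp).1 h10 with h | h
    · exact Or.inl ((Nat.prime_dvd_prime_iff_eq hp Nat.prime_two).1 (hp.dvd_of_dvd_pow h))
    · exact Or.inr ((Nat.prime_dvd_prime_iff_eq hp Nat.prime_three).1 (hp.dvd_of_dvd_pow h))
  obtain ⟨s, hs, hsd, hprim⟩ := Num.zsigmondy (a := 2) (n := n) (by norm_num) (by omega) (fun h => h6 h.2) (by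
    rintro ⟨-, m, hm⟩
    rcases m with _ | m
    · simp at hm
    · rw [pow_succ] at hm; omega)
  haveI : Fact s.Prime := ⟨hs⟩
  obtain ⟨R, hR⟩ := Transfer.exists_isSylowIn (p := s) H
  refine ⟨s, hs, R, hR, ?_⟩
  have hRv : ∀ v : V, v ≠ 1 → s ∣ (MulAction.stabilizer (MulAut V) v).relIndex R := fun v hv => by
    simpa using pow_dvd_relIndex_of_sylow (a := 1) hs hR (by rw [relIndex_of_transitive hH hv, hn, pow_one]; exact hsd)
  have hirr : IrrOn R := irrOn_of_dvd hn hprim hRv
  have hRnt : Nontrivial R := by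
    rw [nontrivial_iff_ne_bot]
    rintro rfl
    obtain ⟨v, hv⟩ := exists_ne (1 : V)
    have := hRv v hv
    rw [relIndex_bot_right, Nat.dvd_one] at this
    exact hs.ne_one this
  haveI := hR.isPGroup.center_nontrivial
  let Z := R ⊓ centralizer (R : Set (MulAut V))
  obtain ⟨z, hz⟩ := exists_ne (1 : center R)
  have hzZ : ((z : R) : MulAut V) ∈ Z := ⟨(z : R).2, fun r hr =>
    congrArg Subtype.val (mem_center_iff.1 z.2 ⟨r, hr⟩)⟩
  have hz1 : ((z : R) : MulAut V) ≠ 1 := fun e => hz (Subtype.ext (Subtype.ext e))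
  have hZirr : IrrOn Z := irrOn_of_dvd hn hprim fun v hv => by
    obtain ⟨k, hk⟩ := IsPGroup.iff_card.1 (hR.isPGroup.to_le (inf_le_left : Z ≤ R))
    obtain ⟨j, -, hj⟩ := (Nat.dvd_prime_pow hs).1 (hk ▸ relIndex_dvd_card (MulAction.stabilizer (MulAut V) v) Z)
    rcases j with _ | j
    · rw [pow_zero, relIndex_eq_one] at hj
      have h2 : v ∈ fixOf ((z : R) : MulAut V) := hj hzZ
      rw [hirr.fixOf_eq_bot hzZ.2 hz1] at h2
      exact absurd h2 hv
    · rw [hj]; exact dvd_pow_self s (by omega)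
  refine solvable_of_le (fun g hg => ?_) (hZirr.solvable_normalizer_of_comm hV fun a ha b hb => hb.2 a ha.1)
  exact inf_normalizer_le_normalizer_inf ⟨hg, Solv.normalizer_le_normalizer_centralizer _ hg⟩

/-- Frattini argument: if `N(H) = H N(R)` with `N(R)` solvable, perfect subgroups of `N(H)` lie in `H`. -/
theorem le_of_perfect_of_solvable_cover {G : Type*} [Group G] {H Y B : Subgroup G}
    (hY : Group.IsSolvable Y) (h : ∀ g ∈ normalizer (H : Set G), ∃ x ∈ H, ∃ y ∈ Y, g = x * y)
    (hB : ⁅B, B⁆ = B) (hBH : B ≤ normalizer (H : Set G)) : B ≤ H := by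
  let N := normalizer (H : Set G)
  have hq : Group.IsSolvable (N ⧸ H.subgroupOf N) := by
    haveI := solvable_of_le (inf_le_left : Y ⊓ N ≤ Y) hY
    refine Group.isSolvable_of_surjective
      (f := (QuotientGroup.mk' (H.subgroupOf N)).comp (inclusion (inf_le_right : Y ⊓ N ≤ N))) fun u => ?_
    induction u using QuotientGroup.induction_on with
    | H g =>
    obtain ⟨x, hx, y, hy, e⟩ := h g g.2
    have hyN : y ∈ N := by
      have := N.mul_mem (N.inv_mem (le_normalizer hx)) g.2
      rwa [e, inv_mul_cancel_left] at this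
    refine ⟨⟨y, hy, hyN⟩, ?_⟩
    change ((⟨y, hyN⟩ : N) : N ⧸ H.subgroupOf N) = g
    rw [eq_comm, QuotientGroup.eq_iff_div_mem, mem_subgroupOf]
    change (g : G) / y ∈ H
    rwa [e, mul_div_cancel_right]
  have := le_of_perfect_of_quotient _ hq (perfect_subgroupOf hBH hB)
  intro b hb
  exact this (show (⟨b, hBH hb⟩ : N) ∈ B.subgroupOf N from hb)

/-- If `H` is transitive on the involutions of an elementary abelian `2`-group, `N(H)/H` is solvable. -/
theorem le_of_perfect_of_transitive [Finite V] (hV : ∀ x : V, x * x = 1) {H B : Subgroup (MulAut V)}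
    (hH : ∀ v ≠ 1, ∀ w ≠ 1, ∃ g ∈ H, g v = w) (hB : ⁅B, B⁆ = B)
    (hBH : B ≤ normalizer (H : Set (MulAut V))) : B ≤ H := by
  obtain ⟨s, hs, R, hR, hsol⟩ := exists_sylow_solvable_normalizer hV hH
  haveI : Fact s.Prime := ⟨hs⟩
  exact le_of_perfect_of_solvable_cover hsol (fun g hg => hR.frattini hg) hB hBH

end Cfsg.Agent.FTC
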